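import Cfsg.Agent.H85.Fpr.Str

/-!
# Fixed point ratios of `p`-elements: `²E₆(2)`, `p = 5` (helper85, TEAM FPR)
-/

set_option autoImplicit false
set_option linter.unusedSectionVars false
set_option linter.unusedVariables false

namespace Cfsg.Agent.H85.FprE6Five

open CoxeterSystem Cfsg.Agent.ChevalleyStructure.CoxeterGeom Cfsg.Agent.Tits.Roots Cfsg.Agent.Tits.Core
  Cfsg.Agent.Nodes.Reps Cfsg.Agent.Nodes.BNOf Cfsg.Agent.Nodes.RGDTwGen Cfsg.Agent.Nodes.RGDChev Cfsg.Agent.Nodes.RGDFold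
  Cfsg.Agent.Nodes.RGDFoldSL Cfsg.Agent.Nodes.RGDTwE6 Cfsg.Agent.Nodes.RGDTwCoord Cfsg.Agent.Nodes.RGDTwCoordE6
  Cfsg.Agent.Nodes.RGDTwComE6 Cfsg.Agent.Nodes.RGDTwActE6 Cfsg.Agent.Nodes.KindChev Cfsg.Agent.Nodes.Coroot
  Cfsg.Agent.Nodes.PosPair Cfsg.Agent.Nodes.LeviDec Cfsg.Agent.Nodes.StabComb Cfsg.Agent.Nodes.Bruhat
  Cfsg.Agent.Nodes.Unique Cfsg.Agent.KFacts.RgdTI
open Cfsg.Lie Cfsg.Agent.ChevalleyStructure
open Cfsg.Agent.H400.TwoExc Cfsg.Agent.H400.TwoExc.TwE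
open Cfsg.Agent.H398.FPR (CommFull UGood Pair Good)
open Cfsg.Agent.H400.Fpr Cfsg.Agent.H400.Fpr.E6
open scoped commutatorElement MatrixGroups

universe u

local notation "cl" => Nodes.RGDTwCoord.cl chevE6 J O

variable {K : Type u} [Field K] [Fintype K] {q : ℕ} {φ : K →+* K}

/-! ### The roots -/

/-- the four modules (with the highest root) -/
def Tm : Fin 4 → Finset (Fin 4 → ℤ) :=
  ![{rr, toV [1,1,1,0], toV [1,1,1,1]}, {rr, toV [1,2,3,1], toV [1,2,3,2]},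
    {rr, toV [1,1,2,0], toV [1,1,2,1], toV [1,1,2,2]}, {rr, toV [1,2,2,0], toV [1,2,2,1], toV [1,2,2,2]}]

/-- the lowest roots -/
def lo4 : Fin 4 → (Fin 4 → ℤ) := ![toV [1,1,1,0], toV [1,2,3,1], toV [1,1,2,0], toV [1,2,2,0]]

/-- the highest roots -/
def hi4 : Fin 4 → (Fin 4 → ℤ) := ![toV [1,1,1,1], toV [1,2,3,2], toV [1,1,2,2], toV [1,2,2,2]]

/-- the four remaining roots -/
def Sf : Fin 4 → (Fin 4 → ℤ) := ![toV [1,0,0,0], toV [1,1,0,0], toV [1,2,4,2], toV [1,3,4,2]]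

/-- all the roots of the modules -/
def Ta : Finset (Fin 4 → ℤ) := Tm 0 ∪ Tm 1 ∪ Tm 2 ∪ Tm 3

theorem sr3 : (sr 3 : Fin 4 → ℤ) = toV [0,0,0,1] := by decide +kernel
theorem rep_tab : ∀ i, lo4 i - pairing Nodes.RGDTwE6.A 3 (lo4 i) • (sr 3 : Fin 4 → ℤ) = hi4 i := by decide +kernel
theorem lo_mem : ∀ i, lo4 i ∈ Tm i := by decide +kernel
theorem hi_mem : ∀ i, hi4 i ∈ Tm i := by decide +kernel
theorem lo_ne : ∀ i, lo4 i ≠ rr ∧ hi4 i ≠ rr ∧ hi4 i ≠ lo4 i := by decide +kernel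
theorem rr_mem : ∀ i, rr ∈ Tm i := by decide +kernel
theorem Tm_tab : ∀ i, ∀ v ∈ Tm i, 0 < qf Nodes.RGDTwE6.A (toV dlF4t) v rr ∧ v ∈ L4 := by decide +kernel
theorem Ta_tab : ∀ v ∈ Ta, v ∈ L4 := by decide +kernel
theorem Tm_Ta : ∀ i, ∀ v ∈ Tm i, v ∈ Ta := by decide +kernel
theorem Ta_Tm : ∀ v ∈ Ta, ∃ i, v ∈ Tm i := by decide +kernel
theorem gt_all : ∀ v ∈ L4, 0 < qf Nodes.RGDTwE6.A (toV dlF4t) v rr → v ∈ Ta ∨ ∃ i, v = Sf i := by decide +kernel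
theorem Sf_tab : ∀ i, 0 < qf Nodes.RGDTwE6.A (toV dlF4t) (Sf i) rr ∧ Sf i ∈ L4 := by decide +kernel
theorem normT : ∀ i, ∀ z ∈ Tm i, ∀ z' ∈ L4, btw (sr 3) z z' → z' ∈ Tm i := by decide +kernel
theorem normT' : ∀ i, ∀ z ∈ Tm i, ∀ z' ∈ L4, btw (-sr 3) z z' → z' ∈ Tm i := by decide +kernel
theorem T_zero : ∀ i, ∀ z ∈ Tm i, 0 < z 0 := by decide +kernel
theorem closedT : ∀ i, ∀ x ∈ Tm i, ∀ y ∈ Tm i, ∀ z ∈ L4, btw x y z → z ∈ Tm i := by decide +kernel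
theorem closedA : ∀ x ∈ Ta, ∀ y ∈ Ta, ∀ z ∈ L4, btw x y z → z ∈ Ta := by decide +kernel
theorem perp3 : qf Nodes.RGDTwE6.A (toV dlF4t) (sr 3) rr = 0 := by decide +kernel
theorem Sf_long : ∀ i, Lg (Sf i) := by unfold Lg; decide +kernel
theorem Sf_neg : ∀ i, -rr + Sf i = -Sf (3 - i) := by decide +kernel
theorem Sf_ne : ∀ i, Sf i ≠ rr := by decide +kernel
theorem Sf_sr : ∀ k, (sr 3 + Sf k ∉ L4 ∧ -(sr 3 + Sf k) ∉ L4) ∧ Sf k ≠ -sr 3 := by decide +kernel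
theorem Sf_sr' : ∀ k, (-sr 3 + Sf k ∉ L4 ∧ -(-sr 3 + Sf k) ∉ L4) ∧ Sf k ≠ - -sr 3 := by decide +kernel
theorem Sf_e : ∀ i, eF4t (Sf i) = 1 := by decide +kernel
theorem Sf_cpr : ∀ i, 2 * qf Nodes.RGDTwE6.A (toV dlF4t) (Sf i) rr = 1 * qf Nodes.RGDTwE6.A (toV dlF4t) rr rr := by
  decide +kernel
theorem sum_m : ∀ i, ∑ z ∈ Tm i, eF4t z = 5 := by decide +kernel
theorem sum_a : ∑ z ∈ Ta, eF4t z = 17 := by decide +kernel
theorem sr3_short : St (sr 3) := by unfold St; decide +kernel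
theorem nsr3_short : St (-sr 3) := by unfold St; decide +kernel

section

variable {W : Type*} [Group W] [Finite W] (cs : CoxeterSystem CoxeterMatrix.F₄ W)
  (hφ : ∀ x, φ x = x ^ q) (hqq : ∀ t : K, (t ^ q) ^ q = t)

/-- the modules -/
noncomputable def Um (φ : K →+* K) (q : ℕ) (i : Fin 4) : Subgroup ↥(twistedE6 K q) :=
  RGD.Sup (X φ q) (Tm i : Set (Fin 4 → ℤ))

theorem gt_tabA {v : Fin 4 → ℤ} (hv : v ∈ Gt cs isCartan rr) : v ∈ Ta ∨ ∃ i, v = Sf i := by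
  have h3 := fun t => (cpr_sign (gr (cs := cs)).hd (gr (cs := cs)).rr
      ((gr (cs := cs)).qf_pos (gr (cs := cs)).rr) t).2
  have h4 := (h3 v).1 hv.2
  rcases (pr cs).1.mem_of_root hv.1 with h5 | h5
  · exact gt_all v h5 h4
  · have h6 := gt_check.2 _ h5
    rw [neg_neg] at h6
    exact absurd h4 h6

theorem Tm_gt (i : Fin 4) {v : Fin 4 → ℤ} (hv : v ∈ Tm i) : v ∈ Gt cs isCartan rr :=
  mem_gt cs (Tm_tab i v hv).2 (Tm_tab i v hv).1

theorem rep_lo (i : Fin 4) : rep cs isCartan (cs.simple 3) (lo4 i) = hi4 i := by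
  rw [rep_simple_eq]
  exact rep_tab i

include hφ hqq cs

theorem Um_norm (i : Fin 4) {g : ↥(twistedE6 K q)} (hg : g ∈ X φ q (sr 3) ⊔ X φ q (-sr 3)) :
    ∀ y ∈ Um φ q i, g * y * g⁻¹ ∈ Um φ q i := by
  obtain ⟨p, hp'⟩ := CharP.exists K
  have : Fact p.Prime := ⟨CharP.char_is_prime K p⟩
  have R := Nodes.RGDTwE6.rgd (K := K) cs hφ hqq p
  have h1 : X φ q (sr 3) ⊔ X φ q (-sr 3) ≤ Subgroup.normalizer ((Um φ q i : Subgroup ↥(twistedE6 K q)) :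
      Set ↥(twistedE6 K q)) := by
    refine sup_le (fun a ha => norm_iff.2 fun y hy => ?_) (fun a ha => norm_iff.2 fun y hy => ?_)
    · exact norm_check R (pr cs).1 (fun z hz => (Tm_tab i z hz).2)
        (isRoot_sr cs isCartan 3) 0 (by decide) (T_zero i) (normT i) ha hy
    · exact norm_check R (pr cs).1 (fun z hz => (Tm_tab i z hz).2)
        (isRoot_sr cs isCartan 3).neg 0 (by decide) (T_zero i) (normT' i) ha hy
  exact norm_iff.1 (h1 hg)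

theorem card_Um (hK : Fintype.card K = q ^ 2) (hq1 : 1 < q) (i : Fin 4) :
    Nat.card (Um φ q i) = Nat.card (X φ q rr) * q ^ 4 := by
  obtain ⟨p, hp'⟩ := CharP.exists K
  have : Fact p.Prime := ⟨CharP.char_is_prime K p⟩
  have h1 := card_sup_check (Nodes.RGDTwE6.rgd (K := K) cs hφ hqq p) (pr cs).1 (S := Tm i)
    (fun z hz => (Tm_tab i z hz).2) (closedT i)
  have h5 : ∏ z ∈ Tm i, Nat.card (X φ q z) = q ^ 5 := by
    have h6 : ∀ z ∈ Tm i, Nat.card (X φ q z) = q ^ eF4t z := fun z hz =>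
      card_X (cs := cs) hφ hqq hK hq1 (isRoot_tab cs (Tm_tab i z hz).2)
    rw [Finset.prod_congr rfl h6, Finset.prod_pow_eq_pow_sum, sum_m]
  unfold Um
  rw [h1, h5, card_Xr hφ hqq hK hq1]
  ring

theorem card_Ua (hK : Fintype.card K = q ^ 2) (hq1 : 1 < q) {V : Subgroup ↥(twistedE6 K q)}
    (hV : ∀ i, Um φ q i ≤ V) : q ^ (2 * 8) * Nat.card (X φ q rr) ≤ Nat.card V := by
  obtain ⟨p, hp'⟩ := CharP.exists K
  have : Fact p.Prime := ⟨CharP.char_is_prime K p⟩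
  have h1 := card_sup_check (Nodes.RGDTwE6.rgd (K := K) cs hφ hqq p) (pr cs).1 (S := Ta) Ta_tab closedA
  have h4 : RGD.Sup (X φ q) ((Ta : Finset (Fin 4 → ℤ)) : Set (Fin 4 → ℤ)) ≤ V := by
    refine RGD.Sup_le fun z hz => ?_
    obtain ⟨i, hi⟩ := Ta_Tm z (Finset.mem_coe.1 hz)
    exact (RGD.le_Sup (Finset.mem_coe.2 hi)).trans (hV i)
  have h5 : ∏ z ∈ Ta, Nat.card (X φ q z) = q ^ 17 := by
    have h6 : ∀ z ∈ Ta, Nat.card (X φ q z) = q ^ eF4t z := fun z hz =>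
      card_X (cs := cs) hφ hqq hK hq1 (isRoot_tab cs (Ta_tab z hz))
    rw [Finset.prod_congr rfl h6, Finset.prod_pow_eq_pow_sum, sum_a]
  rw [card_Xr hφ hqq hK hq1, ← pow_succ]
  calc q ^ (2 * 8 + 1) = q ^ 17 := rfl
    _ = _ := h5.symm
    _ = _ := h1.symm
    _ ≤ _ := Subgroup.card_le_of_le h4

theorem L3_S0 {g : ↥(twistedE6 K q)} (hg : g ∈ X φ q (sr 3) ⊔ X φ q (-sr 3)) (k : Fin 4) {u : ↥(twistedE6 K q)}
    (hu : u ∈ X φ q (Sf k)) : u * g = g * u := by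
  have hk : IsRoot cs isCartan (Sf k) := isRoot_tab cs (Sf_tab k).2
  obtain ⟨a, ha, rfl⟩ := (mem_X_long hφ hqq hk (Sf_long k) u).1 hu
  have h3 := isRoot_sr cs isCartan 3
  have h1 : X φ q (sr 3) ⊔ X φ q (-sr 3) ≤ Subgroup.centralizer {x φ q (Sf k) a} := by
    refine sup_le (fun b hb => ?_) (fun b hb => ?_)
    · obtain ⟨b, rfl⟩ := (mem_X_short hφ hqq h3 sr3_short b).1 hb
      rw [Subgroup.mem_centralizer_singleton_iff]
      have h2 := Sf_sr k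
      exact (comm_nil hφ hqq h3 hk (not_root_tab cs h2.1.1 h2.1.2) h2.2 b a).eq
    · obtain ⟨b, rfl⟩ := (mem_X_short hφ hqq h3.neg nsr3_short b).1 hb
      rw [Subgroup.mem_centralizer_singleton_iff]
      have h2 := Sf_sr' k
      exact (comm_nil hφ hqq h3.neg hk (not_root_tab cs h2.1.1 h2.1.2) h2.2 b a).eq
  exact (Subgroup.mem_centralizer_singleton_iff.1 (h1 hg)).symm

theorem L3_L0 : X φ q (sr 3) ⊔ X φ q (-sr 3) ≤ L0 cs isCartan (X φ q) rr := by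
  have hc : cpr cs isCartan (sr 3) rr = 0 :=
    cpr_val (gr (cs := cs)).hd (gr (cs := cs)).rr (by decide +kernel) (by decide +kernel)
  have hr := isRoot_sr cs isCartan 3
  refine sup_le ?_ ?_
  · exact RGD.le_Sup (S := {s | IsRoot cs isCartan s ∧ cpr cs isCartan s rr = 0}) ⟨hr, hc⟩
  · refine RGD.le_Sup (S := {s | IsRoot cs isCartan s ∧ cpr cs isCartan s rr = 0}) ⟨hr.neg, ?_⟩
    rw [← neg_one_smul ℤ (sr 3), cpr_smul cs isCartan _ _ (show IsRoot cs isCartan rr from (gr (cs := cs)).rr), hc,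
      mul_zero]

end

/-- **`²E₆(2)`, `p = 5`.** -/
theorem good_five (hs : IsSimpleGroup ↥(twistedE6 K 2)) (hcen : Subgroup.center ↥(twistedE6 K 2) = ⊥)
    (hK : Fintype.card K = 2 ^ 2) (hφ : ∀ x, φ x = x ^ 2) (hqq : ∀ t : K, (t ^ 2) ^ 2 = t) :
    Good 1 6 5 ↥(twistedE6 K 2) := by
  let cs : CoxeterSystem CoxeterMatrix.F₄ _ := CoxeterMatrix.F₄.toCoxeterSystem
  have hW : Finite CoxeterMatrix.F₄.Group := Nodes.RGDFold.finite_W (hp := Nodes.RGDTwE6.hp) cs isCartan foldData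
  have hfin : Finite ↥(twistedE6 K 2) := inferInstance
  have h2p : Fact (Nat.Prime 2) := ⟨Nat.prime_two⟩
  have hch : CharP K 2 := by
    obtain ⟨p, hp'⟩ := CharP.exists K
    have hp : Fact p.Prime := ⟨CharP.char_is_prime K p⟩
    obtain ⟨n, -, hn⟩ := FiniteField.card K p
    rw [hK] at hn
    have h1 : p ∣ 2 ^ 2 := by rw [hn]; exact dvd_pow_self p n.ne_zero
    have h2 := (Nat.prime_dvd_prime_iff_eq hp.out Nat.prime_two).1 (hp.out.dvd_of_dvd_pow h1)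
    rwa [h2] at hp'
  have h5 : Nat.Prime 5 := by norm_num
  have hq1 : 1 < 2 := by norm_num
  have hM' : ∀ t : ℕ, t ≠ 0 → 2 ^ t ≡ 1 [MOD 5] → 5 + 1 ≤ 2 ^ t := fun t ht h => succ_le_pow Nat.prime_two ht h
  have H : Hs (Nodes.RGDTwE6.rgd cs hφ hqq 2) rr := (gi hφ hqq 2 hK hq1).hs
  have hG1 := Nodes.RGDTwE6.G1_eq_top cs hφ hqq
  have hQp := isPGroup_QQE (cs := cs) hφ hqq hK hq1 2
  -- the element
  have hF : Nat.card (Fx φ ((Nodes.RGDTwNode.E6.rest 3).length + 1)) = 4 := by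
    have h1 : (Nodes.RGDTwNode.E6.rest 3).length + 1 = 2 := by decide
    have h2 : ∀ x : K, x ∈ Fx φ ((Nodes.RGDTwNode.E6.rest 3).length + 1) := fun x => by
      rw [mem_Fx, h1]
      exact phi_phi hφ hqq x
    have h3 : Nat.card (Fx φ ((Nodes.RGDTwNode.E6.rest 3).length + 1)) = Nat.card K :=
      Nat.card_congr (Equiv.subtypeUnivEquiv h2)
    rw [h3, Nat.card_eq_fintype_card, hK]
    norm_num
  obtain ⟨M, hM5, hM1⟩ := exists_fpf_two (k := Fx φ ((Nodes.RGDTwNode.E6.rest 3).length + 1)) (ℓ := 5) h5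
    (by norm_num) (by rw [hF]; norm_num) (by rw [hF]; norm_num)
  have hMc : M ∉ Subgroup.center (Matrix.SpecialLinearGroup (Fin 2)
      (Fx φ ((Nodes.RGDTwNode.E6.rest 3).length + 1))) := by
    intro hc
    have h1 := sq_eq_one_of_center hc
    have h2 : M = 1 := by
      calc M = M ^ 5 * (M ^ 2)⁻¹ * (M ^ 2)⁻¹ := by group
        _ = 1 := by rw [hM5, h1]; group
    rw [h2] at hM1
    have h3 := hM1 ![1, 0] (by show (1 : Matrix (Fin 2) (Fin 2) _).mulVec _ = _; rw [Matrix.one_mulVec])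
    have h4 := congrFun h3 0
    simp at h4
  set s := Ph hφ hqq 3 with hsdef
  have hsm : ∀ B, s B ∈ X φ 2 (sr 3) ⊔ X φ 2 (-sr 3) := Ph_mem hφ hqq 3
  have hgb : s M ^ 5 ^ 1 = 1 := by rw [pow_one, ← map_pow, hM5, map_one]
  have hgL0 : s M ∈ L0 cs isCartan (X φ 2) rr := L3_L0 cs hφ hqq (hsm M)
  have HX' := hx_rgd H h5 (by norm_num) hgL0 hgb hQp
  have hZ : ∀ g, ∀ z ∈ X φ 2 rr, s g * z = z * s g := fun g z hz =>
    L0_comm H (L3_L0 cs hφ hqq (hsm g)) (Subgroup.mem_sup_left hz)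
  have hUm : ∀ V : Subgroup ↥(twistedE6 K 2), X φ 2 rr ≤ V → (∀ w ∈ QQ cs isCartan (X φ 2) rr, ⁅s M, w⁆ ∈ V) →
      ∀ i, Um φ 2 i ≤ V := by
    intro V hrV hV i
    refine Cfsg.Agent.H85.FprStr.mod_le H 3 Nat.prime_two h5 (by rw [hF]) s ⟨_, Ph_wS hφ hqq 3⟩ (U := Um φ 2 i)
      (fun g y hy => Um_norm cs hφ hqq i (hsm g) y hy) hZ hMc (w := lo4 i) (Tm_gt cs i (lo_mem i)) (lo_ne i).1
      (by rw [rep_lo]; exact Tm_gt cs i (hi_mem i)) (by rw [rep_lo]; exact (lo_ne i).2.1)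
      (by rw [rep_lo]; exact (lo_ne i).2.2) (RGD.le_Sup (Finset.mem_coe.2 (lo_mem i))) HX'
      (RGD.le_Sup (Finset.mem_coe.2 (rr_mem i)))
      (RGD.Sup_le fun z hz => H.X_le (Tm_gt cs i (Finset.mem_coe.1 hz))) (card_Um cs hφ hqq hK hq1 i) ?_ hrV hV
    intro b hb hb4
    interval_cases b <;> norm_num
  have hg1 : s M ≠ 1 := by
    intro h1
    have h2 := hUm (X φ 2 rr) le_rfl (fun w _ => by rw [h1, commutatorElement_one_left]; exact one_mem _) 0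
    have h3 := Subgroup.card_le_of_le h2
    rw [card_Um cs hφ hqq hK hq1, card_Xr hφ hqq hK hq1] at h3
    norm_num at h3
  refine good_of_uGood' h5 ⟨1, hgb⟩ ?_
  refine sharp_root (D := 4) (B := 2 ^ 8) H hs hcen hG1 h5 (by norm_num) hgL0 hgb hg1 hQp Sf ?_ Sf_ne ?_ ?_ ?_ ?_ ?_ ?_
    hM' ?_
  · intro i
    exact mem_gt cs (Sf_tab i).2 (Sf_tab i).1
  · intro i
    rw [card_X (cs := cs) hφ hqq hK hq1 (isRoot_tab cs (Sf_tab i).2), Sf_e i, pow_one]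
  · intro i u hu
    exact L3_S0 cs hφ hqq (hsm M) i hu
  · intro i
    refine neg_comm_long cs hφ hqq (isRoot_tab cs (Sf_tab i).2) (Sf_long i) rr_long ?_
    rw [Sf_neg]
    exact (isRoot_tab cs (Sf_tab (3 - i)).2).neg
  · intro i
    exact cpr_val (gr (cs := cs)).hd (gr (cs := cs)).rr (Sf_cpr i) (by decide +kernel)
  · intro v hv hvr
    rcases gt_tabA cs hv with h6 | h6
    · right
      intro V hrV hVQ hV
      obtain ⟨i, hi⟩ := Ta_Tm v h6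
      exact (RGD.le_Sup (Finset.mem_coe.2 hi)).trans (hUm V hrV hV i)
    · exact Or.inl h6
  · intro V hrV hVQ hV
    rw [← pow_mul, mul_comm 8 2]
    exact card_Ua cs hφ hqq hK hq1 (hUm V hrV hV)
  · norm_num

end Cfsg.Agent.H85.FprE6Five
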