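import Cfsg.Agent.H400.FprE6H

/-!
# Fixed point ratios of `p`-elements: root string modules (helper85, TEAM FPR)

An element `x` of prime order `ℓ` in a simple rank one group `⟨X α, X (-α)⟩` (image of `SL₂(F)`, `|F| ≥ 4`) acts
nontrivially on every module `X r X w ⋯ X (s_α w)` of the Heisenberg group; it acts freely if the module is small.
-/

set_option autoImplicit false
set_option linter.unusedSectionVars false
set_option linter.unusedVariables false

namespace Cfsg.Agent.H85.FprStr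

open CoxeterSystem Cfsg.Agent.ChevalleyStructure.CoxeterGeom Cfsg.Agent.Tits.Roots Cfsg.Agent.Tits.Core
  Cfsg.Agent.Nodes.Reps Cfsg.Agent.Nodes.BNOf Cfsg.Agent.Nodes.StabComb
  Cfsg.Agent.Nodes.Bruhat Cfsg.Agent.Nodes.PosPair Cfsg.Agent.Nodes.Coroot
  Cfsg.Agent.KFacts.RgdTI Cfsg.Agent.Nodes.LeviDec
open Cfsg.Agent.H400.TwoExc Cfsg.Agent.H400.Fpr
open scoped commutatorElement MatrixGroups

/-! ### Normal subgroups of `SL₂` -/

/-- a normal subgroup of `SL₂(F)` with a noncentral element -/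
theorem sl2_normal_top {F : Type*} [Field F] [Finite F] (hF : 4 ≤ Nat.card F)
    (N : Subgroup (Matrix.SpecialLinearGroup (Fin 2) F)) [hN : N.Normal] {M : Matrix.SpecialLinearGroup (Fin 2) F}
    (hM : M ∈ N) (hc : M ∉ Subgroup.center (Matrix.SpecialLinearGroup (Fin 2) F)) : N = ⊤ := by
  have hs := Matrix.ProjectiveSpecialLinearGroup.rank_two_simple (F := F) hF
  let C := Subgroup.center (Matrix.SpecialLinearGroup (Fin 2) F)
  let π : Matrix.SpecialLinearGroup (Fin 2) F →* Matrix.ProjectiveSpecialLinearGroup (Fin 2) F :=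
    QuotientGroup.mk' C
  have hπ : Function.Surjective π := QuotientGroup.mk'_surjective _
  have hNm : (N.map π).Normal := hN.map π hπ
  rcases hs.eq_bot_or_eq_top_of_normal (N.map π) hNm with h1 | h1
  · exfalso
    apply hc
    have h2 : π M ∈ N.map π := Subgroup.mem_map_of_mem π hM
    rw [h1, Subgroup.mem_bot] at h2
    exact (QuotientGroup.eq_one_iff (N := C) M).1 h2
  · -- every element is a product `n z`
    have h2 : ∀ g : Matrix.SpecialLinearGroup (Fin 2) F, ∃ n ∈ N, ∃ z ∈ C, g = n * z := by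
      intro g
      have h3 : π g ∈ N.map π := by rw [h1]; exact Subgroup.mem_top _
      obtain ⟨n, hn, e⟩ := Subgroup.mem_map.1 h3
      refine ⟨n, hn, n⁻¹ * g, ?_, by group⟩
      have h4 : (QuotientGroup.mk n : Matrix.SpecialLinearGroup (Fin 2) F ⧸ C) = QuotientGroup.mk g := e
      exact QuotientGroup.eq.1 h4
    obtain ⟨a, ha, ha2⟩ : ∃ a : F, a ≠ 0 ∧ a ^ 2 ≠ 1 := by
      obtain ⟨x, hx⟩ : IsCyclic Fˣ := by infer_instance
      refine ⟨x, Units.ne_zero x, fun h ↦ ?_⟩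
      have h5 := orderOf_eq_card_of_forall_mem_zpowers hx
      have h6 : orderOf x ≤ 2 := orderOf_le_of_pow_eq_one zero_lt_two (Units.ext <| by simpa using h)
      rw [Nat.card_eq_card_units_add_one F, ← h5] at hF
      omega
    have h3 := Matrix.SL2.commutator_eq_top ha ha2
    rw [eq_top_iff, ← h3, commutator_eq_closure, Subgroup.closure_le]
    rintro _ ⟨g, g', rfl⟩
    obtain ⟨n, hn, z, hz, rfl⟩ := h2 g
    obtain ⟨n', hn', z', hz', rfl⟩ := h2 g'
    have hzc := Subgroup.mem_center_iff.1 hz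
    have hzc' := Subgroup.mem_center_iff.1 hz'
    have h4 : ⁅n * z, n' * z'⁆ = ⁅n, n'⁆ := by
      rw [commutatorElement_def, commutatorElement_def]
      have e1 : n * z * (n' * z') * (n * z)⁻¹ * (n' * z')⁻¹ = n * (z * n' * z') * z⁻¹ * n⁻¹ * z'⁻¹ * n'⁻¹ := by group
      have e2 : z * n' * z' = n' * z' * z := by rw [mul_assoc, ← hzc]
      rw [e1, e2]
      have e3 : n * (n' * z' * z) * z⁻¹ * n⁻¹ * z'⁻¹ * n'⁻¹ = n * n' * (z' * n⁻¹) * z'⁻¹ * n'⁻¹ := by group
      rw [e3, ← hzc']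
      group
    rw [h4]
    exact Subgroup.commutator_le_right ⊤ N (Subgroup.commutator_mem_commutator (Subgroup.mem_top _) hn')

/-! ### Elements acting trivially -/

section Triv

variable {G Y : Type*} [Group G] [Group Y] (s : G →* Y) (U Z : Subgroup Y)
  (hU : ∀ g, ∀ y ∈ U, s g * y * (s g)⁻¹ ∈ U) (hZ : ∀ g, ∀ z ∈ Z, s g * z * (s g)⁻¹ ∈ Z)

/-- the elements acting trivially on `U / Z` -/
def triv : Subgroup G where
  carrier := {g | ∀ y ∈ U, ⁅s g, y⁆ ∈ Z}
  one_mem' := fun y _ => by rw [map_one, commutatorElement_one_left]; exact one_mem _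
  mul_mem' := fun {a b} ha hb y hy => by
    have h1 : ⁅s (a * b), y⁆ = (s a * ⁅s b, y⁆ * (s a)⁻¹) * ⁅s a, y⁆ := by
      rw [map_mul]; simp only [commutatorElement_def]; group
    rw [h1]
    exact mul_mem (hZ a _ (hb y hy)) (ha y hy)
  inv_mem' := fun {a} ha y hy => by
    have h1 : ⁅s a⁻¹, y⁆ = s a⁻¹ * (⁅s a, y⁆)⁻¹ * (s a⁻¹)⁻¹ := by
      rw [map_inv]; simp only [commutatorElement_def]; group
    rw [h1]
    exact hZ a⁻¹ _ (inv_mem (ha y hy))

theorem mem_triv {g : G} : g ∈ triv s U Z hZ ↔ ∀ y ∈ U, ⁅s g, y⁆ ∈ Z := Iff.rfl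

include hU in
theorem triv_normal : (triv s U Z hZ).Normal := by
  refine ⟨fun n hn g y hy => ?_⟩
  have h1 : ⁅s (g * n * g⁻¹), y⁆ = s g * ⁅s n, s g⁻¹ * y * (s g⁻¹)⁻¹⁆ * (s g)⁻¹ := by
    rw [map_mul, map_mul, map_inv]; simp only [commutatorElement_def]; group
  rw [h1]
  exact hZ g _ (hn _ (hU g⁻¹ y hy))

end Triv

/-! ### Root string modules -/

variable {I W Y : Type*} [Fintype I] [DecidableEq I] [Group W] [Group Y] {M : CoxeterMatrix I}
  {cs : CoxeterSystem M W} {A : I → I → ℤ} {h : IsCartan M A} {p : ℕ} {T : Subgroup Y} {n : I → Y}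
  {X : (I → ℤ) → Subgroup Y}

/-- the two root groups `X w`, `X (s_i w)` are not equal modulo the centre -/
theorem refl_moves {R : RGD cs h p T n X} {r : I → ℤ} [Finite W] (H : Hs R r) (i : I) {w : I → ℤ}
    (hw : w ∈ Gt cs h r) (hwr : w ≠ r) (hw' : rep cs h (cs.simple i) w ∈ Gt cs h r)
    (hwr' : rep cs h (cs.simple i) w ≠ r) (hne : rep cs h (cs.simple i) w ≠ w) :
    ∃ y ∈ X w, ⁅n i, y⁆ ∉ X r := by
  obtain ⟨y, hy, hy1⟩ := (Subgroup.bot_or_exists_ne_one (X w)).resolve_left (X_ne_bot R hw.1)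
  refine ⟨y, hy, fun hcon => ?_⟩
  set w' := rep cs h (cs.simple i) w with hw'd
  have h1 : n i * y * (n i)⁻¹ ∈ X w' := by
    rw [hw'd, ← R.conj i w hw.1]
    exact conj_mem_cj.2 hy
  have h2 : n i * y * (n i)⁻¹ ≠ 1 := by rwa [Ne, conj_eq_one_iff]
  obtain ⟨z, hz, hz1⟩ := (Subgroup.bot_or_exists_ne_one (X r)).resolve_left (X_ne_bot R H.L.root)
  obtain ⟨v, hv, hvz⟩ := H.sur w' hw' hwr' _ h1 h2 z hz
  have hsub := H.sub w' hw' hwr'
  -- `v` commutes with `y`
  have h3 : y * v = v * y := by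
    refine H.com w hw _ hsub hwr ?_ ?_ y hy v hv
    · intro h4
      have h5 : w' = 0 := by
        have := sub_eq_self.1 h4
        exact this
      exact hw'.1.ne_zero h5
    · intro h4
      apply hne
      have h5 : w' = w + (r - w') - r + w' := by rw [h4]; abel
      calc w' = w + (r - w') - r + w' := h5
        _ = w := by abel
  have h4 : ⁅n i, y⁆ * v = v * ⁅n i, y⁆ := H.comm_r hcon hsub hv
  have h5 : n i * y * (n i)⁻¹ = ⁅n i, y⁆ * y := by rw [commutatorElement_def]; group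
  have h6 : ⁅n i * y * (n i)⁻¹, v⁆ = 1 := by
    rw [h5, commutatorElement_eq_one_iff_mul_comm]
    calc ⁅n i, y⁆ * y * v = ⁅n i, y⁆ * (y * v) := mul_assoc _ _ _
      _ = ⁅n i, y⁆ * v * y := by rw [h3, mul_assoc]
      _ = v * (⁅n i, y⁆ * y) := by rw [h4, mul_assoc]
  rw [h6] at hvz
  exact hz1 hvz.symm

/-- **An element of a rank one group acts nontrivially on the modules.** -/
theorem exists_not_comm {R : RGD cs h p T n X} {r : I → ℤ} [Finite W] (H : Hs R r) (i : I)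
    {F : Type*} [Field F] [Finite F] (hF : 4 ≤ Nat.card F) (s : Matrix.SpecialLinearGroup (Fin 2) F →* Y)
    (hs : ∃ m, s m = n i) {U : Subgroup Y} (hU : ∀ g, ∀ y ∈ U, s g * y * (s g)⁻¹ ∈ U)
    (hZ : ∀ g, ∀ z ∈ X r, s g * z = z * s g) {B : Matrix.SpecialLinearGroup (Fin 2) F}
    (hB : B ∉ Subgroup.center (Matrix.SpecialLinearGroup (Fin 2) F)) {w : I → ℤ}
    (hw : w ∈ Gt cs h r) (hwr : w ≠ r) (hw' : rep cs h (cs.simple i) w ∈ Gt cs h r)
    (hwr' : rep cs h (cs.simple i) w ≠ r) (hne : rep cs h (cs.simple i) w ≠ w) (hwU : X w ≤ U) :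
    ∃ y ∈ U, s B * y ≠ y * s B := by
  by_contra hcon
  push Not at hcon
  have hZ' : ∀ g, ∀ z ∈ X r, s g * z * (s g)⁻¹ ∈ X r := fun g z hz => by
    rw [hZ g z hz, mul_inv_cancel_right]; exact hz
  have h1 : B ∈ triv s U (X r) hZ' := by
    intro y hy
    rw [commutatorElement_eq_one_iff_mul_comm.2 (hcon y hy)]
    exact one_mem _
  have h2 : (triv s U (X r) hZ').Normal := triv_normal s U (X r) hU hZ'
  have h3 := sl2_normal_top hF (triv s U (X r) hZ') h1 hB
  obtain ⟨m, hm⟩ := hs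
  obtain ⟨y, hy, h4⟩ := refl_moves H i hw hwr hw' hwr' hne
  apply h4
  have h5 : m ∈ triv s U (X r) hZ' := by rw [h3]; exact Subgroup.mem_top _
  have h6 := h5 y (hwU hy)
  rwa [hm] at h6

/-- **Small modules are contained in `[Q, x] Z`.** -/
theorem mod_le {R : RGD cs h p T n X} {r : I → ℤ} [Finite W] [Finite Y] (H : Hs R r) (i : I) (hp : p.Prime)
    {ℓ k : ℕ} (hℓ : ℓ.Prime) {F : Type*} [Field F] [Finite F] (hF : 4 ≤ Nat.card F)
    (s : Matrix.SpecialLinearGroup (Fin 2) F →* Y)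
    (hs : ∃ m, s m = n i) {U : Subgroup Y} (hU : ∀ g, ∀ y ∈ U, s g * y * (s g)⁻¹ ∈ U)
    (hZ : ∀ g, ∀ z ∈ X r, s g * z = z * s g) {B : Matrix.SpecialLinearGroup (Fin 2) F}
    (hB : B ∉ Subgroup.center (Matrix.SpecialLinearGroup (Fin 2) F)) {w : I → ℤ}
    (hw : w ∈ Gt cs h r) (hwr : w ≠ r) (hw' : rep cs h (cs.simple i) w ∈ Gt cs h r)
    (hwr' : rep cs h (cs.simple i) w ≠ r) (hne : rep cs h (cs.simple i) w ≠ w) (hwU : X w ≤ U)
    (HX' : HX p (ℓ ^ k) (X r) (QQ cs h X r) (s B)) (hZU : X r ≤ U) (hUQ : U ≤ QQ cs h X r) {a : ℕ}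
    (hcard : Nat.card U = Nat.card (X r) * p ^ a) (ha : ∀ b : ℕ, 0 < b → b < a → ¬ ℓ ∣ p ^ b - 1)
    {V : Subgroup Y} (hZV : X r ≤ V) (hV : ∀ w ∈ QQ cs h X r, ⁅s B, w⁆ ∈ V) : U ≤ V :=
  HX'.le_of_free hZU hUQ (hU B) (HX'.free_of_card hp hℓ rfl hZU hUQ (hU B) hcard ha
    (exists_not_comm H i hF s hs hU hZ hB hw hwr hw' hwr' hne hwU)) hZV hV

end Cfsg.Agent.H85.FprStr
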